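import Cfsg.Agent.H6.LR.Y.Tab0

set_option autoImplicit false
set_option maxRecDepth 100000
set_option Elab.async false

namespace Cfsg.H6.LR.Y

theorem p30 : allR (ptU img) 23040 768 = true := by decide +kernel

theorem p31 : allR (ptU img) 23808 768 = true := by decide +kernel

theorem p32 : allR (ptU img) 24576 768 = true := by decide +kernel

end Cfsg.H6.LR.Y
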